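import Cfsg.Agent.R2.T1.N7C.Inv
import Cfsg.Agent.R2.T1.N7.H.Main

/-!
# S5929, box sev3c: `n = 7`, cover, characteristic 3 (helper5; theorem H: helper23)
-/

set_option autoImplicit false
set_option maxRecDepth 100000

universe u

namespace Cfsg.Agent.R2.T1.N7C

open Equiv Equiv.Perm Cfsg Cfsg.Lie Module
open Cfsg.Agent.H943.E7V.Block (D1 rho)
open Cfsg.Agent.H952.F4 (ev es MaxAlt)
open Cfsg.Agent.R2.T1

/-- **sev3c** -/
theorem sev3c {F : Type u} [Field F] [Finite F] (H : Subgroup ↥(chevE7.group F))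
    (φ : ↥(alternatingGroup (Fin 7)) →* ↥(chevE7.group F)) (hM : MaxAlt H 7 φ) (hc : Cover φ) (h3 : (3 : F) = 0) :
    False := by
  have h2 : (2 : F) ≠ 0 := by
    intro h2
    have h1 : (1 : F) = 0 := by linear_combination h3 - h2
    exact one_ne_zero h1
  have h5 : (5 : F) ≠ 0 := by
    intro h5
    have h1 : (1 : F) = 0 := by linear_combination 2 * h3 - h5
    exact one_ne_zero h1
  have hinv := no_inv7c h2 h5 hM hc
  refine sev3c_of hM.inj hc h3 hinv fun x y z hx hy hz h45 h133 => ?_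
  refine N7H.main (ρ := MonoidHom.comp (LK F) φ) h3 (kf F)
    (fun v hv => kf_nondeg h2 fun w => by rw [kf_comm]; exact hv w) (fun g v w => ?_) hx hy hz h45 ?_ hinv
  · obtain ⟨g', hg'⟩ := ad_surjective (φ g)
    have := kf_L g' v w
    rw [L_eq, hg'] at this
    exact this
  · rw [finrank_L]
    exact h133

end Cfsg.Agent.R2.T1.N7C
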