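import Cfsg.Agent.R2.T1.N7C.Lin
import Cfsg.Agent.R2.T1.Odd.El
import Cfsg.Agent.R2.T1.Inf.Cov

/-!
# S5929, box sev7c: `n = 7`, cover, characteristic prime to 30 (helper6)

A faithful module `W` of `2.A₆` in characteristic prime to 30 has `4 dim W^x ≤ dim W` for `x` of order 5; here
`dim V^x = 16` and `dim V = 56`.
-/

set_option autoImplicit false

universe u

namespace Cfsg.Agent.R2.T1.N7C

open Equiv Module Cfsg Cfsg.Lie
open Cfsg.Agent.R2.T1.Odd
open Cfsg.Agent.H943.E7V.Block (D1 rho)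
open Cfsg.Agent.H952.F4 (ev es matRep MaxAlt)
open Cfsg.Agent.H944.E6T (ev_conj)

/-- `(0 2 3 1 4)` -/
def px : Perm (Fin 7) := swap 0 2 * swap 2 3 * swap 3 1 * swap 1 4
/-- `(0 1 2)` -/
def pa : Perm (Fin 7) := swap 0 1 * swap 1 2
/-- `(0 1 2)(3 4 5)` -/
def pb : Perm (Fin 7) := swap 0 1 * swap 1 2 * swap 3 4 * swap 4 5
/-- `(2 3 4 1)(5 6)` -/
def pg : Perm (Fin 7) := swap 2 3 * swap 3 4 * swap 4 1 * swap 5 6
/-- `(0 3)(2 4 1 5)` -/
def pg1 : Perm (Fin 7) := swap 0 3 * swap 2 4 * swap 4 1 * swap 1 5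
/-- `(0 3)(5 1 4 2)` -/
def pg2 : Perm (Fin 7) := swap 0 3 * swap 5 1 * swap 1 4 * swap 4 2

theorem sgn4 {a b c d e f g h : Fin 7} (h1 : a ≠ b) (h2 : c ≠ d) (h3 : e ≠ f) (h4 : g ≠ h) :
    swap a b * swap c d * swap e f * swap g h ∈ alternatingGroup (Fin 7) := by
  rw [Perm.mem_alternatingGroup, map_mul, map_mul, map_mul, Perm.sign_swap h1, Perm.sign_swap h2, Perm.sign_swap h3,
    Perm.sign_swap h4]
  rfl

theorem sgn2 {a b c d : Fin 7} (h1 : a ≠ b) (h2 : c ≠ d) : swap a b * swap c d ∈ alternatingGroup (Fin 7) := by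
  rw [Perm.mem_alternatingGroup, map_mul, Perm.sign_swap h1, Perm.sign_swap h2]
  rfl

/-- `(0 2 3 1 4)` -/
def qx : ↥(alternatingGroup (Fin 7)) := ⟨px, sgn4 (by decide) (by decide) (by decide) (by decide)⟩
/-- `(0 1 2)` -/
def qa : ↥(alternatingGroup (Fin 7)) := ⟨pa, sgn2 (by decide) (by decide)⟩
/-- `(0 1 2)(3 4 5)` -/
def qb : ↥(alternatingGroup (Fin 7)) := ⟨pb, sgn4 (by decide) (by decide) (by decide) (by decide)⟩
/-- `(2 3 4 1)(5 6)` -/
def qg : ↥(alternatingGroup (Fin 7)) := ⟨pg, sgn4 (by decide) (by decide) (by decide) (by decide)⟩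
/-- `(0 3)(2 4 1 5)` -/
def qg1 : ↥(alternatingGroup (Fin 7)) := ⟨pg1, sgn4 (by decide) (by decide) (by decide) (by decide)⟩
/-- `(0 3)(5 1 4 2)` -/
def qg2 : ↥(alternatingGroup (Fin 7)) := ⟨pg2, sgn4 (by decide) (by decide) (by decide) (by decide)⟩

theorem qx5 : qx ^ 5 = 1 := Subtype.ext (by decide)
theorem qx1 : qx ≠ 1 := fun h => absurd (congrArg Subtype.val h) (by decide)
theorem qa3 : qa ^ 3 = 1 := Subtype.ext (by decide)
theorem qb3 : qb ^ 3 = 1 := Subtype.ext (by decide)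
theorem qab : qa * qb = qb * qa := Subtype.ext (by decide)
theorem q_xa : px * pa = swap 0 4 * swap 1 3 := by decide
theorem q_xxb : px * px * pb = swap 2 3 * swap 4 5 := by decide
theorem q_g : qg * qx * qg⁻¹ = qx ^ 2 := Subtype.ext (by decide)
theorem q_g1 : qg1 * (qa * qb) * qg1⁻¹ = qb := Subtype.ext (by decide)
theorem q_g2 : qg2 * (qa * (qb * qb)) * qg2⁻¹ = qa := Subtype.ext (by decide)

variable {F : Type u} [Field F]

/-- **sev7c** -/
theorem sev7c [Finite F] (H : Subgroup ↥(chevE7.group F)) (φ : ↥(alternatingGroup (Fin 7)) →* ↥(chevE7.group F))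
    (hM : MaxAlt H 7 φ) (hc : Cover φ) (h2 : (2 : F) ≠ 0) (h3 : (3 : F) ≠ 0) (h5 : (5 : F) ≠ 0) : False := by
  have hφ := hM.inj
  obtain ⟨x, hx, hx5⟩ := odd_lift (k := 5) (g := φ qx) (by decide) (by rw [← map_pow, qx5, map_one])
  obtain ⟨a, ha, ha3⟩ := odd_lift (k := 3) (g := φ qa) (by decide) (by rw [← map_pow, qa3, map_one])
  obtain ⟨b, hb, hb3⟩ := odd_lift (k := 3) (g := φ qb) (by decide) (by rw [← map_pow, qb3, map_one])
  obtain ⟨g, hg⟩ := ad_surjective (φ qg)
  obtain ⟨g1, hg1⟩ := ad_surjective (φ qg1)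
  obtain ⟨g2, hg2⟩ := ad_surjective (φ qg2)
  have hab : a * b = b * a := by
    have h1 : a * b * a⁻¹ = b := by
      refine odd_unique (k := 3) (by decide) ?_ ?_ hb3
      · rw [map_mul, map_mul, map_inv, ha, hb, ← map_mul, qab, map_mul, mul_inv_cancel_right]
      · rw [conj_pow, hb3, mul_one, mul_inv_cancel]
    calc a * b = a * b * a⁻¹ * a := by rw [inv_mul_cancel_right]
      _ = b * a := by rw [h1]
  have hcom : Commute a b := hab
  -- the fixed points of `x`
  have hgx : g * x * g⁻¹ = x ^ 2 := by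
    refine odd_unique (k := 5) (by decide) ?_ ?_ ?_
    · rw [map_mul, map_mul, map_inv, map_pow, hg, hx, ← map_pow, ← q_g, map_mul, map_mul, map_inv]
    · rw [conj_pow, hx5, mul_one, mul_inv_cancel]
    · rw [← pow_mul, mul_comm, pow_mul, hx5, one_pow]
  have hx1 : x ≠ 1 := by
    rintro rfl
    rw [map_one] at hx
    exact qx1 (hφ (by rw [← hx, map_one]))
  have e16 := five_rat h5 hx5 hx1 hgx
  -- the relations
  have r1 : V F (x * a * (x * a)) = -1 := by
    refine hc.sq (a := qx * qa) (by norm_num) hφ ?_ (by rw [map_mul, hx, ha, map_mul])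
    show (px * pa).cycleType = {2, 2}
    rw [q_xa]
    exact ct_swaps (by decide) (by decide) (by decide) (by decide) (by decide) (by decide)
  have r2 : V F (x * x * b * (x * x * b)) = -1 := by
    refine hc.sq (a := qx * qx * qb) (by norm_num) hφ ?_ (by rw [map_mul, map_mul, hx, hb, map_mul, map_mul])
    show (px * px * pb).cycleType = {2, 2}
    rw [q_xxb]
    exact ct_swaps (by decide) (by decide) (by decide) (by decide) (by decide) (by decide)
  -- conjugate elements
  have c1 : g1 * (a * b) * g1⁻¹ = b := by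
    refine odd_unique (k := 3) (by decide) ?_ ?_ hb3
    · rw [map_mul, map_mul, map_inv, map_mul, hg1, ha, hb, ← map_mul, ← map_mul, ← map_inv, ← map_mul, q_g1]
    · rw [conj_pow, hcom.mul_pow, ha3, hb3, mul_one, mul_one, mul_inv_cancel]
  have c2 : g2 * (a * (b * b)) * g2⁻¹ = a := by
    refine odd_unique (k := 3) (by decide) ?_ ?_ ha3
    · rw [map_mul, map_mul, map_inv, map_mul, map_mul, hg2, ha, hb, ← map_mul, ← map_mul, ← map_mul, ← map_inv,
        ← map_mul, q_g2]
    · rw [conj_pow, (hcom.mul_right hcom).mul_pow, (Commute.refl b).mul_pow, ha3, hb3, mul_one, mul_one, mul_one,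
        mul_inv_cancel]
  have d1 : ev (V F a * V F b) 1 = ev (V F b) 1 := by
    have h := ev_conj (V F) g1 (a * b) 1
    rw [c1] at h
    rw [← map_mul, h]
  have d2 : ev (V F a * (V F b * V F b)) 1 = ev (V F a) 1 := by
    have h := ev_conj (V F) g2 (a * (b * b)) 1
    rw [c2] at h
    rw [← map_mul, ← map_mul, h]
  have key := core (X := V F x) (A := V F a) (B := V F b) h2 h3 h5
    (fun v => by
      rw [← V_mul, ← V_mul, ← V_mul, ← V_mul]
      have : x * x * x * x * x = 1 := by rw [← hx5]; simp only [pow_succ, pow_zero, one_mul]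
      rw [this, V_one])
    (fun v => by
      rw [← V_mul, ← V_mul]
      have : a * a * a = 1 := by rw [← ha3]; simp only [pow_succ, pow_zero, one_mul]
      rw [this, V_one])
    (fun v => by
      rw [← V_mul, ← V_mul]
      have : b * b * b = 1 := by rw [← hb3]; simp only [pow_succ, pow_zero, one_mul]
      rw [this, V_one])
    (fun v => by rw [← V_mul, hab, V_mul])
    (fun v => by
      rw [← V_mul, ← V_mul, ← V_mul]
      have : x * a * x * a = x * a * (x * a) := by simp only [mul_assoc]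
      rw [this, r1]; rfl)
    (fun v => by
      rw [← V_mul, ← V_mul, ← V_mul, ← V_mul, ← V_mul]
      have : x * x * b * x * x * b = x * x * b * (x * x * b) := by simp only [mul_assoc]
      rw [this, r2]; rfl) d1 d2
  rw [e16, finrank_V] at key
  omega

end Cfsg.Agent.R2.T1.N7C
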