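import Cfsg.Agent.R2.T1.N7C.Three0
import Cfsg.Agent.R2.T1.N7.Tau2
import Cfsg.Agent.R2.T1.N6B.Neg

/-!
# S5929, box sev3c: no fixed vector on the adjoint module, cover (helper5)

`no_inv7c` : a transposition of `S₇` anticommutes with an element of order 8 of `2.A₇` : excluded by `no_neg`.
-/

set_option autoImplicit false
set_option maxRecDepth 100000

universe u v

namespace Cfsg.Agent.R2.T1.N7C

open Equiv Equiv.Perm Cfsg Cfsg.Lie Module
open Cfsg.Agent.H943.E7V.Block (D1 rho)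
open Cfsg.Agent.H952.F4 (ev es MaxAlt)
open Cfsg.Agent.R2.T1

/-- `(0 1)(2 3)` -/
def p1 : Perm (Fin 7) := swap 0 1 * swap 2 3
/-- `(3 4 5)` -/
def p2 : Perm (Fin 7) := swap 3 4 * swap 4 5
/-- `(0 2)(1 3)` -/
def p3 : Perm (Fin 7) := swap 0 2 * swap 1 3

theorem p1_sign : sign p1 = 1 := by decide
theorem p2_sign : sign p2 = 1 := by decide
theorem p3_sign : sign p3 = 1 := by decide
theorem p1_type : p1.cycleType = {2, 2} := by decide +kernel
theorem p12_type : (p1 * p2 * (p1 * p2)).cycleType = {2, 2} := by decide +kernel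
theorem p2_cube : p2 ^ 3 = 1 := by decide
theorem p1_comm : p1 = swap 0 1 * p1 * (swap 0 1)⁻¹ := by decide
theorem p2_comm : p2 = swap 0 1 * p2 * (swap 0 1)⁻¹ := by decide
theorem p3_conj : p3 * swap 0 1 * p3⁻¹ = swap 0 1 * p1 := by decide

variable {F : Type u} [Field F] [Finite F] {H : Subgroup ↥(chevE7.group F)}
  {φ : ↥(alternatingGroup (Fin 7)) →* ↥(chevE7.group F)}

/-- **the adjoint module has no fixed vector** -/
theorem no_inv7c (h2 : (2 : F) ≠ 0) (h5 : (5 : F) ≠ 0) (hM : MaxAlt H 7 φ) (hc : Cover φ) :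
    Representation.invariants (MonoidHom.comp (LK F) φ) = ⊥ := by
  by_contra hne
  obtain ⟨h, hh, hconj⟩ := N7.Tau.exists_swap h2 h5 hM hne
  have hφ := hM.inj
  obtain ⟨z, hz1, hz, hzad, -⟩ := id hc
  have hzV : V F z = -1 := neg_of hz
  obtain ⟨T, hT⟩ := ad_surjective h
  let q1 : ↥(alternatingGroup (Fin 7)) := ⟨p1, mem_alternatingGroup.2 p1_sign⟩
  let q2 : ↥(alternatingGroup (Fin 7)) := ⟨p2, mem_alternatingGroup.2 p2_sign⟩
  let q3 : ↥(alternatingGroup (Fin 7)) := ⟨p3, mem_alternatingGroup.2 p3_sign⟩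
  obtain ⟨A, hA⟩ := ad_surjective (φ q1)
  obtain ⟨G, hG⟩ := ad_surjective (φ q3)
  obtain ⟨R, hR, hR3⟩ := odd_lift (k := 3) (g := φ q2) (by decide)
    (by rw [← map_pow, show q2 ^ 3 = 1 from Subtype.ext p2_cube, map_one])
  have hA2 : V F (A * A) = -1 := hc.sq (by norm_num) hφ (a := q1) p1_type hA
  have hAz : A * A = z := V_injective (hA2.trans hzV.symm)
  have e1 : h * φ q1 * h⁻¹ = φ q1 := hconj q1 q1 p1_comm
  have e2 : h * φ q2 * h⁻¹ = φ q2 := hconj q2 q2 p2_comm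
  -- `T` commutes with `R`
  have hTR : T * R * T⁻¹ = R := odd_unique (k := 3) (by decide) (by rw [map_mul, map_mul, map_inv, hT, hR, e2])
    (by rw [conj_pow, hR3, mul_one, mul_inv_cancel]) hR3
  have hw : ad F (T * A * T⁻¹ * A⁻¹) = 1 := by
    rw [map_mul, map_mul, map_mul, map_inv, map_inv, hT, hA, e1, mul_inv_cancel]
  rcases ker_cases hzV hw with hw | hw
  · -- `T` commutes with `A` : impossible
    have hTA : T * A = A * T := by
      rw [mul_inv_eq_one, mul_inv_eq_iff_eq_mul] at hw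
      exact hw
    -- `h * h = 1`
    have hcen : ∀ g : ↥(chevE7.group F), (∀ c : ↥(alternatingGroup (Fin 7)), g * φ c = φ c * g) → g ∈ H → g = 1 := by
      intro g hg _
      exact centralizer_eq hM (by norm_num) fun c => (hg c).symm
    have hh1 : h * h = 1 := by
      refine hcen _ (fun c => ?_) (H.mul_mem hh hh)
      have hmem : swap 0 1 * (c : Perm (Fin 7)) * (swap 0 1)⁻¹ ∈ alternatingGroup (Fin 7) := N7.Tau.conj_mem c.2
      have f1 := hconj c ⟨_, hmem⟩ rfl
      have f2 := hconj ⟨_, hmem⟩ c (by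
        show (c : Perm (Fin 7)) = swap 0 1 * (swap 0 1 * (c : Perm (Fin 7)) * (swap 0 1)⁻¹) * (swap 0 1)⁻¹
        rw [swap_inv]
        have : swap 0 1 * (swap 0 1 * (c : Perm (Fin 7)) * swap 0 1) * swap 0 1 =
            (swap 0 1 * swap 0 1) * (c : Perm (Fin 7)) * (swap 0 1 * swap 0 1) := by group
        rw [this, swap_mul_self, one_mul, mul_one])
      rw [← f1] at f2
      rw [← mul_inv_eq_iff_eq_mul]
      conv_rhs => rw [← f2]
      group
    -- the conjugate of `h` by `(0 2)(1 3)` is `h (0 1)(2 3)`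
    have hu : (h * φ q1)⁻¹ * (φ q3 * h * (φ q3)⁻¹) = 1 := by
      refine hcen _ (fun c => ?_) ?_
      · have hmem : swap 0 1 * p1 * (c : Perm (Fin 7)) * (swap 0 1 * p1)⁻¹ ∈ alternatingGroup (Fin 7) :=
          N7.Tau.conj_mem c.2
        have hmem1 : p1 * (c : Perm (Fin 7)) * p1⁻¹ ∈ alternatingGroup (Fin 7) := N7.Tau.conj_mem c.2
        have f1 := hconj ⟨_, hmem1⟩ ⟨_, hmem⟩ (by
          show swap 0 1 * p1 * (c : Perm (Fin 7)) * (swap 0 1 * p1)⁻¹ =
            swap 0 1 * (p1 * (c : Perm (Fin 7)) * p1⁻¹) * (swap 0 1)⁻¹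
          group)
        have g1 : φ ⟨_, hmem1⟩ = φ q1 * φ c * (φ q1)⁻¹ := by
          rw [← map_inv, ← map_mul, ← map_mul]
          rfl
        have hmem3 : p3⁻¹ * (c : Perm (Fin 7)) * p3⁻¹⁻¹ ∈ alternatingGroup (Fin 7) := N7.Tau.conj_mem c.2
        have hmem4 : p3⁻¹ * (swap 0 1 * p1 * (c : Perm (Fin 7)) * (swap 0 1 * p1)⁻¹) * p3⁻¹⁻¹ ∈
            alternatingGroup (Fin 7) := N7.Tau.conj_mem hmem
        have f2 := hconj ⟨_, hmem3⟩ ⟨_, hmem4⟩ (by
          show p3⁻¹ * (swap 0 1 * p1 * (c : Perm (Fin 7)) * (swap 0 1 * p1)⁻¹) * p3⁻¹⁻¹ =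
            swap 0 1 * (p3⁻¹ * (c : Perm (Fin 7)) * p3⁻¹⁻¹) * (swap 0 1)⁻¹
          rw [← p3_conj]
          group)
        have g3 : φ ⟨_, hmem3⟩ = (φ q3)⁻¹ * φ c * φ q3 := by
          rw [← map_inv, ← map_mul, ← map_mul]
          congr 1
        have g4 : φ ⟨_, hmem4⟩ = (φ q3)⁻¹ * φ ⟨_, hmem⟩ * φ q3 := by
          rw [← map_inv, ← map_mul, ← map_mul]
          congr 1
        rw [g1] at f1
        rw [g3, g4] at f2
        have k1 : (h * φ q1) * φ c * (h * φ q1)⁻¹ = φ ⟨_, hmem⟩ := by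
          rw [← f1]
          group
        have k2 : (φ q3 * h * (φ q3)⁻¹) * φ c * (φ q3 * h * (φ q3)⁻¹)⁻¹ = φ ⟨_, hmem⟩ := by
          have : (φ q3 * h * (φ q3)⁻¹) * φ c * (φ q3 * h * (φ q3)⁻¹)⁻¹ =
              φ q3 * (h * ((φ q3)⁻¹ * φ c * φ q3) * h⁻¹) * (φ q3)⁻¹ := by group
          rw [this, f2]
          group
        have k3 : (h * φ q1) * φ c * (h * φ q1)⁻¹ =
            (φ q3 * h * (φ q3)⁻¹) * φ c * (φ q3 * h * (φ q3)⁻¹)⁻¹ := k1.trans k2.symm
        generalize h * φ q1 = a at k3 ⊢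
        generalize φ q3 * h * (φ q3)⁻¹ = b at k3 ⊢
        have k4 : φ c = a⁻¹ * (a * φ c * a⁻¹) * a := by group
        have k5 : a⁻¹ * b * φ c = a⁻¹ * (b * φ c * b⁻¹) * b := by group
        rw [k5, ← k3]
        group
      · exact H.mul_mem (H.inv_mem (H.mul_mem hh (hM.le ⟨q1, rfl⟩)))
          (H.mul_mem (H.mul_mem (hM.le ⟨q3, rfl⟩) hh) (H.inv_mem (hM.le ⟨q3, rfl⟩)))
    have hw' : ad F ((T * A)⁻¹ * (G * T * G⁻¹)) = 1 := by
      rw [map_mul, map_inv, map_mul, map_mul, map_mul, map_inv, hT, hA, hG]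
      exact hu
    set w := (T * A)⁻¹ * (G * T * G⁻¹) with hwdef
    have hw2 := ker_sq hw'
    have hwc := ker_comm hw'
    have hGT : G * T * G⁻¹ = T * A * w := by rw [hwdef, mul_inv_cancel_left]
    have hT2 : ad F (T * T) = 1 := by rw [map_mul, hT, hh1]
    have hT2c := ker_comm hT2
    have k1 : G * (T * T) * G⁻¹ = T * T := by
      rw [hT2c G, mul_inv_cancel_right]
    have k2 : G * (T * T) * G⁻¹ = T * T * z := by
      calc G * (T * T) * G⁻¹ = (G * T * G⁻¹) * (G * T * G⁻¹) := by group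
        _ = T * A * w * (T * A * w) := by rw [hGT]
        _ = T * A * (w * (T * A)) * w := by group
        _ = T * A * (T * A * w) * w := by rw [hwc (T * A)]
        _ = T * (A * T) * A * (w * w) := by group
        _ = T * (T * A) * A := by rw [hw2, mul_one, hTA]
        _ = T * T * (A * A) := by group
        _ = T * T * z := by rw [hAz]
    apply hz1
    have k3 : T * T * z = T * T := k2.symm.trans k1
    exact mul_eq_left.1 k3
  · -- `T` inverts the sign of `A R`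
    have hTA : T * A * T⁻¹ = z * A := by
      rw [← hw, inv_mul_cancel_right]
    have hY : T * (A * R) * T⁻¹ = z * (A * R) := by
      calc T * (A * R) * T⁻¹ = (T * A * T⁻¹) * (T * R * T⁻¹) := by group
        _ = z * A * R := by rw [hTA, hTR]
        _ = z * (A * R) := mul_assoc _ _ _
    have hY4 : V F ((A * R) ^ 4) = -1 := by
      have f1 := hc.sq (by norm_num) hφ (a := q1 * q2 * (q1 * q2)) p12_type (x := A * R * (A * R))
        (by rw [map_mul, map_mul, hA, hR, map_mul, map_mul])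
      have f2 : (A * R) ^ 4 = A * R * (A * R) * (A * R * (A * R)) := by
        simp only [pow_succ, pow_zero, one_mul, mul_assoc]
      rw [f2]
      exact f1
    refine N6B.no_neg h2 (k := A * R) (g := T) hY4 ?_
    rw [hY, map_mul, hzV]
    refine LinearMap.ext fun v => ?_
    rfl

end Cfsg.Agent.R2.T1.N7C
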