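import Mathlib
import Cfsg.Agent.H952.F4.Defs

/-!
# S5929, `n = 7`, cover: linear algebra for `2.A₆` in characteristic prime to 30 (helper6)

`X`, `A`, `B` of orders 5, 3, 3, `[A, B] = 1`, `(X A) ^ 2 = (X ^ 2 B) ^ 2 = -1`: then `4 dim ker (X - 1) ≤ dim W`.
-/

set_option autoImplicit false

namespace Cfsg.Agent.R2.T1.N7C

open Module
open Cfsg.Agent.H952.F4 (ev)

section
variable {K W : Type*} [Field K] [AddCommGroup W] [Module K W]

/-- the fixed points -/
abbrev fx (T : Module.End K W) : Submodule K W := Module.End.eigenspace T 1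

theorem mem_fx {T : Module.End K W} {v : W} : v ∈ fx T ↔ T v = v := by
  rw [Module.End.mem_eigenspace_iff, one_smul]

/-- `1 + T + T²` -/
def N3 (T : Module.End K W) : Module.End K W := 1 + T + T * T

theorem N3_apply (T : Module.End K W) (v : W) : N3 T v = v + T v + T (T v) := rfl

/-- `1 + T + T² + T³ + T⁴` -/
def N5 (T : Module.End K W) : Module.End K W := 1 + T + T * T + T * (T * T) + T * (T * (T * T))

theorem N5_apply (T : Module.End K W) (v : W) : N5 T v = v + T v + T (T v) + T (T (T v)) + T (T (T (T v))) := rfl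

theorem N3_fix {T : Module.End K W} (hT : ∀ v, T (T (T v)) = v) (v : W) : T (N3 T v) = N3 T v := by
  rw [N3_apply, map_add, map_add, hT]; abel

theorem N3_comm {T S : Module.End K W} (h : ∀ v, S (T v) = T (S v)) {v : W} (hv : S v = v) :
    S (N3 T v) = N3 T v := by
  rw [N3_apply, map_add, map_add, h, h, h, hv]

theorem N3_smul {T : Module.End K W} {v : W} (hv : T v = v) : N3 T v = (3 : K) • v := by
  rw [N3_apply, hv, hv]; module

theorem N5_smul {T : Module.End K W} {v : W} (hv : T v = v) : N5 T v = (5 : K) • v := by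
  rw [N5_apply, hv, hv, hv, hv]; module

theorem N5_shift {T : Module.End K W} (hT : ∀ v, T (T (T (T (T v)))) = v) (v : W) : N5 T (T v) = N5 T v := by
  rw [N5_apply, N5_apply, hT]; abel

theorem N3_shift {T : Module.End K W} (hT : ∀ v, T (T (T v)) = v) (v : W) : N3 T (T v) = N3 T v := by
  rw [N3_apply, N3_apply, hT]; abel

/-- dimensions -/
theorem dim_le [FiniteDimensional K W] {f : Module.End K W} {U E D : Submodule K W} (hU : ∀ v ∈ U, f v ∈ D)
    (hE : E ≤ D) (hz : ∀ v ∈ U, f v ∈ E → v = 0) : finrank K ↥E + finrank K ↥U ≤ finrank K ↥D := by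
  have hinj : Function.Injective (f.domRestrict U) := by
    rw [← LinearMap.ker_eq_bot, LinearMap.ker_eq_bot']
    rintro ⟨v, hv⟩ h
    have h1 : f v = 0 := h
    exact Subtype.ext (hz v hv (by rw [h1]; exact zero_mem _))
  have h1 : finrank K ↥(U.map f) = finrank K ↥U := by
    have := LinearMap.finrank_range_of_inj hinj
    rwa [LinearMap.range_domRestrict] at this
  have h2 : E ⊓ U.map f = ⊥ := by
    rw [eq_bot_iff]
    rintro w ⟨hw, v, hv, rfl⟩
    rw [hz v hv hw, map_zero]
    exact zero_mem _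
  have h3 := Submodule.finrank_sup_add_finrank_inf_eq E (U.map f)
  rw [h2, finrank_bot] at h3
  have h4 : E ⊔ U.map f ≤ D := sup_le hE (by rintro _ ⟨v, hv, rfl⟩; exact hU v hv)
  have h5 := Submodule.finrank_mono h4
  omega

/-- three commuting operators of order 3 -/
theorem inter {T : Module.End K W} (h3 : (3 : K) ≠ 0) (hT : ∀ v, T (T (T v)) = v) {E : Submodule K W}
    {w u : W} (hw : T w = w) (h : N3 T w ∈ E) : w ∈ E := by
  rw [N3_smul hw] at h
  have h1 := E.smul_mem (3 : K)⁻¹ h
  rwa [smul_smul, inv_mul_cancel₀ h3, one_smul] at h1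

/-- **Artin's formula for `3²`, one inequality** -/
theorem four [FiniteDimensional K W] (h3 : (3 : K) ≠ 0) {A B : Module.End K W} (hA : ∀ v, A (A (A v)) = v)
    (hB : ∀ v, B (B (B v)) = v) (hAB : ∀ v, A (B v) = B (A v)) :
    ev A 1 + ev B 1 + ev (A * B) 1 + ev (A * (B * B)) 1 ≤ finrank K W + 3 * finrank K ↥(fx A ⊓ fx B) := by
  set E := fx A ⊓ fx B with hE
  have mE : ∀ v, v ∈ E ↔ A v = v ∧ B v = v := fun v => by
    rw [hE, Submodule.mem_inf, mem_fx, mem_fx]
  have hC : ∀ v, (A * B) ((A * B) ((A * B) v)) = v := by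
    intro v
    simp only [Module.End.mul_apply]
    rw [hAB, hAB, hAB, hAB, hAB, hAB, hB, hA]
  have hD : ∀ v, (A * (B * B)) ((A * (B * B)) ((A * (B * B)) v)) = v := by
    intro v
    simp only [Module.End.mul_apply]
    simp only [hAB, hB, hA]
  have cA : ∀ v, A v = v → (A * B) v = v → v ∈ E := by
    intro v h1 h2
    rw [Module.End.mul_apply, hAB, h1] at h2
    exact (mE v).2 ⟨h1, h2⟩
  have cB : ∀ v, B v = v → (A * B) v = v → v ∈ E := by
    intro v h1 h2
    rw [Module.End.mul_apply, h1] at h2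
    exact (mE v).2 ⟨h2, h1⟩
  have dA : ∀ v, A v = v → (A * (B * B)) v = v → v ∈ E := by
    intro v h1 h2
    have h3 : B (B v) = v := by
      rwa [Module.End.mul_apply, Module.End.mul_apply, hAB, hAB, h1] at h2
    have h4 := hB v
    rw [h3] at h4
    exact (mE v).2 ⟨h1, h4⟩
  have dB : ∀ v, B v = v → (A * (B * B)) v = v → v ∈ E := by
    intro v h1 h2
    rw [Module.End.mul_apply, Module.End.mul_apply, h1, h1] at h2
    exact (mE v).2 ⟨h2, h1⟩
  have dC : ∀ v, (A * B) v = v → (A * (B * B)) v = v → v ∈ E := by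
    intro v h1 h2
    have h3 : B v = v := by
      have h4 : (A * (B * B)) v = B ((A * B) v) := by
        simp only [Module.End.mul_apply]
        rw [hAB]
      rw [h4, h1] at h2
      exact h2
    exact dB v h3 h2
  have commAC : ∀ v, A ((A * B) v) = (A * B) (A v) := fun v => by simp only [Module.End.mul_apply, hAB]
  have commBC : ∀ v, B ((A * B) v) = (A * B) (B v) := fun v => by simp only [Module.End.mul_apply, hAB]
  have commAD : ∀ v, A ((A * (B * B)) v) = (A * (B * B)) (A v) := fun v => by simp only [Module.End.mul_apply, hAB]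
  have commBD : ∀ v, B ((A * (B * B)) v) = (A * (B * B)) (B v) := fun v => by simp only [Module.End.mul_apply, hAB]
  have commCD : ∀ v, (A * B) ((A * (B * B)) v) = (A * (B * B)) ((A * B) v) := fun v => by
    simp only [Module.End.mul_apply, hAB]
  -- three intersections
  have k1 : fx A ⊓ fx B = E := rfl
  have k2 : (fx A ⊔ fx B) ⊓ fx (A * B) ≤ E := by
    rintro v ⟨hv, hv'⟩
    obtain ⟨u, hu, w, hw, rfl⟩ := Submodule.mem_sup.1 hv
    rw [mem_fx] at hu hw
    have hv2 := mem_fx.1 hv'
    refine inter h3 hC (u := u) hv2 ?_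
    rw [map_add]
    exact E.add_mem (cA _ (N3_comm commAC hu) (N3_fix hC u)) (cB _ (N3_comm commBC hw) (N3_fix hC w))
  have k3 : (fx A ⊔ fx B ⊔ fx (A * B)) ⊓ fx (A * (B * B)) ≤ E := by
    rintro v ⟨hv, hv'⟩
    obtain ⟨s, hs, w', hw', rfl⟩ := Submodule.mem_sup.1 hv
    obtain ⟨u, hu, w, hw, rfl⟩ := Submodule.mem_sup.1 hs
    rw [mem_fx] at hu hw hw'
    have hv2 := mem_fx.1 hv'
    refine inter h3 hD (u := u) hv2 ?_
    rw [map_add, map_add]
    exact E.add_mem (E.add_mem (dA _ (N3_comm commAD hu) (N3_fix hD u)) (dB _ (N3_comm commBD hw) (N3_fix hD w)))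
      (dC _ (N3_comm commCD hw') (N3_fix hD w'))
  have e1 := Submodule.finrank_sup_add_finrank_inf_eq (fx A) (fx B)
  have e2 := Submodule.finrank_sup_add_finrank_inf_eq (fx A ⊔ fx B) (fx (A * B))
  have e3 := Submodule.finrank_sup_add_finrank_inf_eq (fx A ⊔ fx B ⊔ fx (A * B)) (fx (A * (B * B)))
  have m2 := Submodule.finrank_mono k2
  have m3 := Submodule.finrank_mono k3
  have m4 := Submodule.finrank_le (fx A ⊔ fx B ⊔ fx (A * B) ⊔ fx (A * (B * B)))
  rw [k1] at e1
  have r1 : ev A 1 = finrank K ↥(fx A) := rfl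
  have r2 : ev B 1 = finrank K ↥(fx B) := rfl
  have r3 : ev (A * B) 1 = finrank K ↥(fx (A * B)) := rfl
  have r4 : ev (A * (B * B)) 1 = finrank K ↥(fx (A * (B * B))) := rfl
  omega

/-- **`2.A₆`** -/
theorem core [FiniteDimensional K W] (h2 : (2 : K) ≠ 0) (h3 : (3 : K) ≠ 0) (h5 : (5 : K) ≠ 0)
    {X A B : Module.End K W} (hX : ∀ v, X (X (X (X (X v)))) = v) (hA : ∀ v, A (A (A v)) = v)
    (hB : ∀ v, B (B (B v)) = v) (hAB : ∀ v, A (B v) = B (A v)) (h1 : ∀ v, X (A (X (A v))) = -v)
    (h4 : ∀ v, X (X (B (X (X (B v))))) = -v) (hc : ev (A * B) 1 = ev B 1) (hd : ev (A * (B * B)) 1 = ev A 1) :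
    4 * ev X 1 + finrank K ↥(fx A ⊓ fx B) ≤ finrank K W := by
  have mE : ∀ v, v ∈ fx A ⊓ fx B ↔ A v = v ∧ B v = v := fun v => by
    rw [Submodule.mem_inf, mem_fx, mem_fx]
  -- on the fixed points of `X`
  have a1 : ∀ v, X v = v → N5 X (N3 A v) = (5 : K) • v := by
    intro v hv
    have e1 := h1 (A (A v))
    rw [hA, hv] at e1
    have e2 := N5_shift hX (A v)
    rw [e1, map_neg] at e2
    rw [N3_apply, map_add, map_add, ← e2, N5_smul hv]
    abel
  have a2 : ∀ v, X v = v → N5 X (N3 B v) = (5 : K) • v := by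
    intro v hv
    have e1 := h4 (B (B v))
    rw [hB, hv, hv] at e1
    have e2 := N5_shift hX (X (B v))
    rw [e1, N5_shift hX, map_neg] at e2
    rw [N3_apply, map_add, map_add, ← e2, N5_smul hv]
    abel
  -- on the fixed points of `E`
  have b1 : ∀ w, A w = w → B w = w → N3 B (N3 A (N5 X w)) = (9 : K) • w := by
    intro w hw hw'
    have e1 := h1 w
    rw [hw] at e1
    have e2 : A (X w) = - X (X (X (X w))) := by
      have := congrArg (fun u => X (X (X (X u)))) e1
      simp only [map_neg] at this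
      rw [hX] at this
      exact this
    have e3 := h4 w
    rw [hw'] at e3
    have e4 : B (X (X w)) = - X (X (X w)) := by
      have := congrArg (fun u => X (X (X u))) e3
      simp only [map_neg] at this
      rw [hX] at this
      exact this
    have hBA : ∀ v, N3 B (N3 A v) = N3 A (N3 B v) := by
      intro v
      simp only [N3_apply, map_add, hAB]
      abel
    have f1 : N3 B (N3 A (X w)) = - N3 B (N3 A (X (X (X (X w))))) := by
      rw [← N3_shift hA (X w), e2, map_neg, map_neg]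
    have f2 : N3 B (N3 A (X (X w))) = - N3 B (N3 A (X (X (X w)))) := by
      rw [hBA, ← N3_shift hB (X (X w)), e4, map_neg, map_neg, hBA]
    rw [N5_apply, map_add, map_add, map_add, map_add, map_add, map_add, map_add, map_add, f1, f2, N3_smul hw,
      map_smul, N3_smul hw', smul_smul]
    have : (3 : K) * 3 = 9 := by norm_num
    rw [this]
    abel
  -- the crucial step
  have fin : ∀ v w, X v = v → A w = w → B w = w → N5 X w = (5 : K) • v → N3 B (N3 A v) = (3 : K) • w → v = 0 := by
    intro v w hv hw hw' e1 e2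
    have e3 := b1 w hw hw'
    rw [e1, map_smul, map_smul, e2, smul_smul] at e3
    have e4 : (6 : K) • w = 0 := by
      have : (6 : K) • w = ((5 : K) * 3) • w - (9 : K) • w := by rw [← sub_smul]; norm_num
      rw [this, e3, sub_self]
    have h6 : (6 : K) ≠ 0 := by
      have : (6 : K) = 2 * 3 := by norm_num
      rw [this]
      exact mul_ne_zero h2 h3
    have e5 := (smul_eq_zero.1 e4).resolve_left h6
    rw [e5, map_zero] at e1
    exact (smul_eq_zero.1 e1.symm).resolve_left h5
  have cA : finrank K ↥(fx A ⊓ fx B) + finrank K ↥(fx X) ≤ finrank K ↥(fx A) := by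
    refine dim_le (f := N3 A) (fun v _ => mem_fx.2 (N3_fix hA v)) inf_le_left fun v hv hw => ?_
    rw [mem_fx] at hv
    obtain ⟨hw1, hw2⟩ := (mE _).1 hw
    refine fin v _ hv hw1 hw2 (a1 v hv) (N3_smul hw2)
  have cB : finrank K ↥(fx A ⊓ fx B) + finrank K ↥(fx X) ≤ finrank K ↥(fx B) := by
    refine dim_le (f := N3 B) (fun v _ => mem_fx.2 (N3_fix hB v)) inf_le_right fun v hv hw => ?_
    rw [mem_fx] at hv
    obtain ⟨hw1, hw2⟩ := (mE _).1 hw
    refine fin v _ hv hw1 hw2 (a2 v hv) ?_
    have hBA : N3 B (N3 A v) = N3 A (N3 B v) := by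
      simp only [N3_apply, map_add, hAB]
      abel
    rw [hBA, N3_smul hw1]
  have hf := four h3 hA hB hAB
  rw [hc, hd] at hf
  have r0 : ev X 1 = finrank K ↥(fx X) := rfl
  have r1 : ev A 1 = finrank K ↥(fx A) := rfl
  have r2 : ev B 1 = finrank K ↥(fx B) := rfl
  omega

end

end Cfsg.Agent.R2.T1.N7C
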